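import Cfsg.Agent.CITCor.ClsStruct
import Cfsg.Agent.Solv.BHM2
import Cfsg.Agent.Solv.TwoClassSizes
import Cfsg.Agent.Solv.NilpotentHall

/-!
Groups with conjugacy class sizes `1, n, m, nm`: basic tools, and `n`, `m` are prime powers.
-/

set_option autoImplicit false

namespace Cfsg.Lib.Cs4

open Subgroup Cfsg.Lib.Solv Cfsg.Lib.Solv.ClassSize

universe u

/-- The centralizer of an element. -/
abbrev C {G : Type u} [Group G] (x : G) : Subgroup G := centralizer ({x} : Set G)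

/-- `x` is a `p`-element. -/
def PE {G : Type u} [Group G] (p : ℕ) (x : G) : Prop := ∃ k, orderOf x = p ^ k

/-- The class sizes are `1, n, m, nm`. -/
structure Hy (G : Type u) [Group G] (n m : ℕ) : Prop where
  hn : 1 < n
  hm : 1 < m
  cop : n.Coprime m
  mem : ∀ x : G, (C x).index = 1 ∨ (C x).index = n ∨ (C x).index = m ∨ (C x).index = n * m
  exn : ∃ x : G, (C x).index = n
  exm : ∃ x : G, (C x).index = m
  exnm : ∃ x : G, (C x).index = n * m

/-- The index of the centre in a centralizer of index `nm`. -/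
noncomputable def cc (G : Type u) [Group G] (n m : ℕ) : ℕ := (center G).index / (n * m)

variable {G : Type u} [Group G]

theorem PE.conj {p : ℕ} {x : G} (h : PE p x) (g : G) : PE p (g * x * g⁻¹) := by
  obtain ⟨k, hk⟩ := h
  exact ⟨k, ((MulAut.conj g).orderOf_eq x).trans hk⟩

theorem PE.coprime {r s : ℕ} (hr : r.Prime) (hs : s.Prime) (hrs : r ≠ s) {x y : G}
    (hx : PE r x) (hy : PE s y) : (orderOf x).Coprime (orderOf y) := by
  obtain ⟨j, hj⟩ := hx
  obtain ⟨k, hk⟩ := hy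
  exact CITCor.Cls.coprime_orderOf_of_ne hr hs hrs hj hk

theorem PE.coprime_prime {r s : ℕ} (hr : r.Prime) (hs : s.Prime) (hrs : r ≠ s) {x : G}
    (hx : PE r x) : (orderOf x).Coprime s := by
  obtain ⟨j, hj⟩ := hx
  rw [hj]
  exact Nat.Coprime.pow_left _ ((Nat.coprime_primes hr hs).2 hrs)

theorem PE.of_pow_eq_one {p k : ℕ} (hp : p.Prime) {x : G} (h : x ^ p ^ k = 1) : PE p x := by
  obtain ⟨j, -, hj⟩ := (Nat.dvd_prime_pow hp).1 (orderOf_dvd_of_pow_eq_one h)
  exact ⟨j, hj⟩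

theorem PE.pow_eq_one {p : ℕ} {x : G} (h : PE p x) : ∃ k, x ^ p ^ k = 1 := by
  obtain ⟨k, hk⟩ := h
  exact ⟨k, hk ▸ pow_orderOf_eq_one x⟩

theorem PE.of_mem {p : ℕ} (hp : p.Prime) {U : Subgroup G} (hU : IsPGroup p U) {x : G}
    (hx : x ∈ U) : PE p x := by
  obtain ⟨k, hk⟩ := hU ⟨x, hx⟩
  exact PE.of_pow_eq_one hp (k := k) (by simpa using congrArg Subtype.val hk)

theorem PE.isPGroup {p : ℕ} {x : G} (h : PE p x) : IsPGroup p (zpowers x) := by
  obtain ⟨k, hk⟩ := h.pow_eq_one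
  exact isPGroup_zpowers_of_pow_eq_one hk

theorem PE.mul {p : ℕ} (hp : p.Prime) {x y : G} (hx : PE p x) (hy : PE p y) (hc : Commute x y) :
    PE p (x * y) := by
  obtain ⟨j, hj⟩ := hx.pow_eq_one
  obtain ⟨k, hk⟩ := hy.pow_eq_one
  refine PE.of_pow_eq_one hp (k := j + k) ?_
  rw [hc.mul_pow, pow_add, pow_mul x, hj, one_pow, mul_comm (p ^ j), pow_mul y, hk, one_pow,
    one_mul]

theorem conj_mem_center_iff {x g : G} : g * x * g⁻¹ ∈ center G ↔ x ∈ center G := by
  rw [← index_cent_eq_one_iff, index_cent_conj, index_cent_eq_one_iff]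

variable [Finite G]

/-- A `p`-element of `K` is conjugate in `K` into a subgroup of index prime to `p`. -/
theorem PE.exists_conj_rel {p : ℕ} (hp : p.Prime) {K D : Subgroup G} {x : G} (hx : PE p x)
    (hxK : x ∈ K) (h : ¬ p ∣ D.relIndex K) : ∃ g ∈ K, g * x * g⁻¹ ∈ D := by
  have := Fact.mk hp
  obtain ⟨P, hP⟩ := exists_sylow_le_of_not_dvd_index (G := K) (C := D.subgroupOf K) h
  obtain ⟨k, hk⟩ := hx.pow_eq_one
  obtain ⟨Q, hQ⟩ := exists_sylow_mem_of_pow_eq_one (G := K) (p := p) (k := k) (x := ⟨x, hxK⟩)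
    (Subtype.ext (by simpa using hk))
  obtain ⟨g, hg⟩ := MulAction.exists_smul_eq K Q P
  refine ⟨g, g.2, ?_⟩
  have h1 : g * ⟨x, hxK⟩ * g⁻¹ ∈ (P : Subgroup K) := by
    rw [← hg, Sylow.coe_subgroup_smul]
    exact Subgroup.smul_mem_pointwise_smul _ _ _ hQ
  exact mem_subgroupOf.1 (hP h1)

theorem PE.exists_conj {p : ℕ} (hp : p.Prime) {D : Subgroup G} {x : G} (hx : PE p x)
    (h : ¬ p ∣ D.index) : ∃ g, g * x * g⁻¹ ∈ D := by
  obtain ⟨g, -, hg⟩ := hx.exists_conj_rel hp (K := ⊤) (mem_top x) (D := D)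
    (by rwa [relIndex_top_right])
  exact ⟨g, hg⟩

theorem not_dvd_relIndex_of_forall {p : ℕ} (hp : p.Prime) {K D : Subgroup G}
    (h : ∀ x ∈ K, PE p x → x ∈ D) : ¬ p ∣ D.relIndex K := fun hd => by
  obtain ⟨x, hx, hxD, hk⟩ := exists_not_mem_of_dvd_relIndex hp hd
  exact hxD (h x hx hk)

theorem le_of_forall_PE {K D : Subgroup G}
    (h : ∀ r : ℕ, r.Prime → ∀ x ∈ K, PE r x → x ∈ D) : K ≤ D := fun x hx => by
  by_contra hxD
  obtain ⟨r, k, y, hr, -, hy, hk, hyD⟩ := CITCor.Cls.exists_primary_not_mem hxD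
  exact hyD (h r hr y (zpowers_le.2 hx hy) ⟨k, hk⟩)

theorem eq_of_le {A B : Subgroup G} (h : A ≤ B) (hi : A.index = B.index) : A = B :=
  eq_of_le_of_index_le h hi.le

omit [Finite G] in
theorem index_center_eq (x : G) :
    (center G).relIndex (C x) * (C x).index = (center G).index :=
  relIndex_mul_index (center_le_cent x)

namespace Hy

variable {n m : ℕ} (H : Hy G n m)
include H

omit [Finite G] in
theorem symm : Hy G m n where
  hn := H.hm
  hm := H.hn
  cop := H.cop.symm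
  mem x := by
    rcases H.mem x with h | h | h | h
    · exact Or.inl h
    · exact Or.inr (Or.inr (Or.inl h))
    · exact Or.inr (Or.inl h)
    · exact Or.inr (Or.inr (Or.inr (by rw [h, mul_comm])))
  exn := H.exm
  exm := H.exn
  exnm := by rw [mul_comm]; exact H.exnm

omit [Finite G] H in
theorem cc_symm : cc G m n = cc G n m := by rw [cc, cc, mul_comm]

omit [Finite G] in
theorem not_m_dvd_n : ¬ m ∣ n := fun h => H.hm.ne' (H.cop.symm.eq_one_of_dvd h)

omit [Finite G] in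
theorem not_n_dvd_m : ¬ n ∣ m := H.symm.not_m_dvd_n

omit [Finite G] in
theorem n_ne_m : n ≠ m := fun h => H.not_m_dvd_n (h ▸ dvd_rfl)

omit [Finite G] in
theorem n_ne_nm : n ≠ n * m := fun h => H.not_m_dvd_n (h ▸ Dvd.intro_left n rfl)

omit [Finite G] in
theorem not_both {t : ℕ} (ht : t.Prime) (h1 : t ∣ n) (h2 : t ∣ m) : False :=
  ht.one_lt.ne' (Nat.eq_one_of_dvd_coprimes H.cop h1 h2)

omit [Finite G] in
theorem not_cen_n {x : G} (h : (C x).index = n) : x ∉ center G := fun hz =>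
  H.hn.ne' (h.symm.trans (index_cent_eq_one_iff.2 hz))

omit [Finite G] in
theorem not_cen_nm {x : G} (h : (C x).index = n * m) : x ∉ center G := fun hz => by
  have h1 := h.symm.trans (index_cent_eq_one_iff.2 hz)
  exact H.hn.ne' (Nat.eq_one_of_mul_eq_one_right h1)

omit [Finite G] in
/-- A noncentral element with index dividing `n` has index `n`. -/
theorem eq_n_of_dvd {x : G} (hx : x ∉ center G) (h : (C x).index ∣ n) : (C x).index = n := by
  rcases H.mem x with h1 | h1 | h1 | h1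
  · exact absurd (index_cent_eq_one_iff.1 h1) hx
  · exact h1
  · exact absurd (h1 ▸ h) H.not_m_dvd_n
  · exact absurd ((Dvd.intro_left n rfl).trans (h1 ▸ h)) H.not_m_dvd_n

omit [Finite G] in
theorem of_n_dvd {x : G} (h : n ∣ (C x).index) : (C x).index = n ∨ (C x).index = n * m := by
  rcases H.mem x with h1 | h1 | h1 | h1
  · exact absurd (Nat.eq_one_of_dvd_one (h1 ▸ h)) H.hn.ne'
  · exact Or.inl h1
  · exact absurd (h1 ▸ h) H.not_n_dvd_m
  · exact Or.inr h1

omit [Finite G] in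
theorem of_nm_dvd {x : G} (h : n * m ∣ (C x).index) : (C x).index = n * m := by
  rcases H.of_n_dvd ((Dvd.intro m rfl).trans h) with h1 | h1
  · exact absurd ((Dvd.intro_left n rfl).trans (h1 ▸ h)) H.not_m_dvd_n
  · exact h1

/-- An overgroup of a centralizer of index `n`. -/
theorem cent_eq_n {x y : G} (hx : (C x).index = n) (hy : y ∉ center G) (h : C x ≤ C y) :
    (C y).index = n ∧ C x = C y := by
  have h1 := H.eq_n_of_dvd hy (hx ▸ index_dvd_of_le h)
  exact ⟨h1, eq_of_le h (hx.trans h1.symm)⟩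

omit [Finite G] in
theorem index_center : (center G).index = n * m * cc G n m := by
  obtain ⟨w, hw⟩ := H.exnm
  rw [cc, Nat.mul_div_cancel']
  rw [← hw]
  exact index_dvd_of_le (center_le_cent w)

theorem rel_nm {w : G} (hw : (C w).index = n * m) : (center G).relIndex (C w) = cc G n m := by
  have h := index_center_eq w
  rw [hw, H.index_center, mul_comm] at h
  exact Nat.eq_of_mul_eq_mul_left (Nat.mul_pos (by have := H.hn; omega) (by have := H.hm; omega)) h

theorem rel_n {x : G} (hx : (C x).index = n) : (center G).relIndex (C x) = m * cc G n m := by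
  have h := index_center_eq x
  rw [hx, H.index_center, mul_comm, mul_assoc] at h
  exact Nat.eq_of_mul_eq_mul_left (by have := H.hn; omega) h

theorem dvd_cc {t : ℕ} (ht : t.Prime) {w y : G} (hw : (C w).index = n * m) (hy : y ∈ C w)
    (hyt : PE t y) (hyZ : y ∉ center G) : t ∣ cc G n m := by
  obtain ⟨k, hk⟩ := hyt
  exact H.rel_nm hw ▸ dvd_relIndex_of_normal ht hy hk hyZ

theorem exists_nm {t : ℕ} (ht : t.Prime) {w : G} (hw : (C w).index = n * m) (h : t ∣ cc G n m) :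
    ∃ y ∈ C w, y ∉ center G ∧ PE t y :=
  exists_not_mem_of_dvd_relIndex ht (by rwa [H.rel_nm hw])

theorem exists_n {t : ℕ} (ht : t.Prime) {x : G} (hx : (C x).index = n)
    (h : t ∣ m * cc G n m) : ∃ y ∈ C x, y ∉ center G ∧ PE t y :=
  exists_not_mem_of_dvd_relIndex ht (by rwa [H.rel_n hx])

theorem exists_prime_cc : ∃ p : ℕ, p.Prime ∧ p ∣ cc G n m := by
  obtain ⟨w, hw⟩ := H.exnm
  obtain ⟨r, k, y, hr, -, hy, hk, hyZ⟩ := CITCor.Cls.exists_primary_not_mem (H.not_cen_nm hw)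
  exact ⟨r, hr, H.dvd_cc hr hw (zpowers_le_cent w hy) ⟨k, hk⟩ hyZ⟩

theorem exists_PE_n : ∃ r : ℕ, r.Prime ∧ ∃ x : G, PE r x ∧ (C x).index = n := by
  obtain ⟨x, hx⟩ := H.exn
  obtain ⟨r, k, y, hr, -, hy, hk, hyZ⟩ := CITCor.Cls.exists_primary_not_mem (H.not_cen_n hx)
  exact ⟨r, hr, y, ⟨k, hk⟩, (H.cent_eq_n hx hyZ (cent_le_cent_of_mem_zpowers hy)).1⟩

/-- Fact F1. -/
theorem f1 {w v : G} (hw : (C w).index = n * m) (hv : v ∈ C w)
    (hc : (orderOf w).Coprime (orderOf v)) : C w ≤ C v := by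
  have hcm : Commute w v := (mem_cent_iff_commute.1 hv).symm
  have h1 := H.of_nm_dvd (hw ▸ index_cent_dvd_mul_left hcm hc)
  exact cent_le_of_index_le hcm hc (h1.trans hw.symm).le

/-- The product of an element of index `n` and a commuting element of coprime order. -/
theorem mul_n {x v : G} (hx : (C x).index = n) (hv : v ∈ C x)
    (hc : (orderOf x).Coprime (orderOf v)) :
    C x ≤ C v ∨ ((C (x * v)).index = n * m ∧ (C v).relIndex (C x) = m) := by
  have hcm : Commute x v := (mem_cent_iff_commute.1 hv).symm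
  rcases H.of_n_dvd (hx ▸ index_cent_dvd_mul_left hcm hc) with h1 | h1
  · exact Or.inl (cent_le_of_index_le hcm hc (h1.trans hx.symm).le)
  · refine Or.inr ⟨h1, ?_⟩
    have h2 := relIndex_mul_index (inf_le_left : C x ⊓ C v ≤ C x)
    rw [inf_relIndex_left, hx, ← cent_mul_of_coprime hcm hc, h1, mul_comm] at h2
    exact Nat.eq_of_mul_eq_mul_left (by have := H.hn; omega) h2

omit H [Finite G] in
theorem mem_cent_mul {x v : G} (hv : v ∈ C x) : x ∈ C (x * v) ∧ v ∈ C (x * v) := by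
  have hcm : Commute x v := (mem_cent_iff_commute.1 hv).symm
  exact ⟨mem_cent_iff_commute.2 ((Commute.refl x).mul_right hcm),
    mem_cent_iff_commute.2 (hcm.symm.mul_right (Commute.refl v))⟩

/-- Lemma A: a centralizer of index `n` is not abelian. -/
theorem lemA {x : G} (hx : (C x).index = n) (hab : ∀ h ∈ C x, C x ≤ C h) : False := by
  have key : ∀ h ∈ C x, h ∉ center G → (C h).index = n ∧ C x = C h := fun h hh hz =>
    H.cent_eq_n hx hz (hab h hh)
  obtain ⟨p, hp, hpc⟩ := H.exists_prime_cc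
  by_cases hpm : p ∣ m
  · obtain ⟨w, hw⟩ := H.exnm
    obtain ⟨u, huw, huZ, hup⟩ := H.exists_nm hp hw hpc
    obtain ⟨g, hg⟩ := hup.exists_conj hp (D := C x) (by rw [hx]; exact fun h => H.not_both hp h hpm)
    have h1 := (key _ hg (mt conj_mem_center_iff.1 huZ)).2
    have h2 : g * w * g⁻¹ ∈ C x := by
      rw [h1, mem_cent]
      have := mem_cent.1 huw
      calc g * w * g⁻¹ * (g * u * g⁻¹) = g * (w * u) * g⁻¹ := by group
        _ = g * u * g⁻¹ * (g * w * g⁻¹) := by rw [← this]; group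
    have h3 := (key _ h2 (mt conj_mem_center_iff.1 (H.not_cen_nm hw))).1
    rw [index_cent_conj, hw] at h3
    exact H.n_ne_nm h3.symm
  · obtain ⟨d, hdx, hdZ, hdp⟩ := H.exists_n hp hx (hpc.mul_left m)
    obtain ⟨y, hy⟩ := H.exm
    obtain ⟨g, hg⟩ := hdp.exists_conj hp (D := C y) (by rwa [hy])
    have h1 := (key _ hdx hdZ).2
    have h2 : g⁻¹ * y * g⁻¹⁻¹ ∈ C x := by
      rw [h1, mem_cent]
      have := mem_cent.1 hg
      calc g⁻¹ * y * g⁻¹⁻¹ * d = g⁻¹ * (y * (g * d * g⁻¹)) * g := by group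
        _ = d * (g⁻¹ * y * g⁻¹⁻¹) := by rw [← this]; group
    have h3 := (key _ h2 (mt conj_mem_center_iff.1 (H.symm.not_cen_n hy))).1
    rw [index_cent_conj, hy] at h3
    exact H.n_ne_m h3.symm

omit H in
theorem ab_of_primary {x : G} (h : ∀ r : ℕ, r.Prime → ∀ v ∈ C x, PE r v → C x ≤ C v) :
    ∀ v ∈ C x, C x ≤ C v := fun _ hv =>
  le_cent_iff.2 (le_of_forall_PE (K := C x) (D := centralizer (C x : Set G))
    (fun r hr y hy hyr => le_cent_iff.1 (h r hr y hy hyr)) hv)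

/-- Lemma B. -/
theorem lemB (h1 : ∀ s : ℕ, s.Prime → s ∣ cc G n m → s ∣ m) {t : ℕ} (ht : t.Prime) (htn : t ∣ n)
    (h2 : ∀ x : G, PE t x → (C x).index ≠ n) : False := by
  have htm : ¬ t ∣ m := fun h => H.not_both ht htn h
  obtain ⟨d, -, hdZ, hdt⟩ := exists_not_mem_of_dvd_relIndex (Z := center G) (C := ⊤) ht
    (by rw [relIndex_top_right, H.index_center]; exact (htn.mul_right m).mul_right _)
  have hd : (C d).index = m := by
    rcases H.mem d with h | h | h | h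
    · exact absurd (index_cent_eq_one_iff.1 h) hdZ
    · exact absurd h (h2 d hdt)
    · exact h
    · exact absurd (h1 t ht (H.dvd_cc ht h (self_mem_cent d) hdt hdZ)) htm
  have hs : ∀ r : ℕ, r.Prime → r ∣ m → ∀ u ∈ C d, PE r u → C d ≤ C u := by
    intro r hr hrm u hu hur
    have hrt : t ≠ r := fun e => htm (e ▸ hrm)
    rcases H.symm.mul_n hd hu (PE.coprime ht hr hrt hdt hur) with h | ⟨h, -⟩
    · exact h
    · rw [mul_comm m n] at h
      exact absurd (h1 t ht (H.dvd_cc ht h (mem_cent_mul hu).1 hdt hdZ)) htm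
  obtain ⟨p, hp, hpc⟩ := H.exists_prime_cc
  have hpm := h1 p hp hpc
  obtain ⟨u0, hu0, hu0Z, hu0p⟩ := H.symm.exists_n hp hd (by rw [cc_symm]; exact hpc.mul_left n)
  obtain ⟨hi0, he0⟩ := H.symm.cent_eq_n hd hu0Z (hs p hp hpm u0 hu0 hu0p)
  refine H.symm.lemA hd (ab_of_primary fun r hr v hv hvr => ?_)
  by_cases hrm : r ∣ m
  · exact hs r hr hrm v hv hvr
  by_cases hvZ : v ∈ center G
  · exact le_top.trans (cent_eq_top_iff.2 hvZ).ge
  have hpr : p ≠ r := fun e => hrm (e ▸ hpm)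
  rw [he0] at hv ⊢
  rcases H.symm.mul_n hi0 hv (PE.coprime hp hr hpr hu0p hvr) with h | ⟨h, -⟩
  · exact h
  · rw [mul_comm m n] at h
    exact absurd (h1 r hr (H.dvd_cc hr h (mem_cent_mul hv).2 hvr hvZ)) hrm

omit [Finite G] in
theorem exists_prime_ne (hpp : ¬ IsPrimePow m) {r : ℕ} (hr : r.Prime) :
    ∃ p : ℕ, p.Prime ∧ p ∣ m ∧ p ≠ r := by
  by_contra hno
  push Not at hno
  have h0 : m ≠ 0 := by have := H.hm; omega
  have h1 := Nat.eq_prime_pow_of_unique_prime_dvd h0 (fun {d} hd hdm => hno d hd hdm)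
  refine hpp ⟨r, _, hr.prime, Nat.pos_of_ne_zero fun h => ?_, h1.symm⟩
  rw [h, pow_zero] at h1
  exact H.hm.ne' h1

theorem pp1 (hpp : ¬ IsPrimePow m) {r : ℕ} (hr : r.Prime) {x : G} (hxr : PE r x)
    (hx : (C x).index = n) :
    r ∣ m ∧ ∀ t : ℕ, t.Prime → ¬ t ∣ m → ∀ d ∈ C x, PE t d → C x ≤ C d := by
  have := Fact.mk hr
  have hco : ∀ v : G, (orderOf v).Coprime r → (orderOf x).Coprime (orderOf v) := fun v hv => by
    obtain ⟨k, hk⟩ := hxr
    rw [hk]
    exact Nat.Coprime.pow_left _ hv.symm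
  by_cases hall : ∀ v ∈ C x, (orderOf v).Coprime r → C x ≤ C v
  · exfalso
    obtain ⟨p, hp, hpm, hpr⟩ := H.exists_prime_ne hpp hr
    obtain ⟨x', hx', hx'Z, hx'p⟩ := H.exists_n hp hx (hpm.mul_right _)
    obtain ⟨hi, he⟩ := H.cent_eq_n hx hx'Z (hall x' hx' (hx'p.coprime_prime hp hr hpr))
    refine H.lemA hx (ab_of_primary fun s hs v hv hvs => ?_)
    by_cases hsr : s = r
    · subst hsr
      rcases H.mul_n hi (he ▸ hv) (PE.coprime hp hs hpr hx'p hvs) with h | ⟨-, h⟩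
      · exact he ▸ h
      · refine absurd (h ▸ hpm) (not_dvd_relIndex_of_forall hp fun y hy hyp => ?_)
        rw [← he] at hy
        exact mem_cent_comm.1 (hall y hy (hyp.coprime_prime hp hs hpr) hv)
    · exact hall v hv (hvs.coprime_prime hs hr hsr)
  push Not at hall
  obtain ⟨v0, hv0, hv0r, hv0n⟩ := hall
  have hm0 : (C v0).relIndex (C x) = m := ((H.mul_n hx hv0 (hco v0 hv0r)).resolve_left hv0n).2
  have h2 : ∀ v : C x, (orderOf v).Coprime r →
      (centralizer ({v} : Set (C x))).index = 1 ∨ (centralizer ({v} : Set (C x))).index = m := by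
    intro v hv
    rw [index_cent_subtype]
    rw [← Subgroup.orderOf_coe] at hv
    rcases H.mul_n hx v.2 (hco v hv) with h | ⟨-, h⟩
    · exact Or.inl (relIndex_eq_one.2 h)
    · exact Or.inr h
  have hm1 : (centralizer ({⟨v0, hv0⟩} : Set (C x))).index = m := by
    rw [index_cent_subtype]; exact hm0
  rcases CITCor.Cls.struct_two h2 with h | ⟨q, hq, hqr, h⟩
  · exfalso
    obtain ⟨k, hk⟩ := h ⟨v0, hv0⟩ (by rwa [← Subgroup.orderOf_coe])
    obtain ⟨p, hp, hpm, hpr⟩ := H.exists_prime_ne hpp hr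
    rw [hm1] at hk
    exact hpr ((Nat.prime_dvd_prime_iff_eq hp hr).1 (hp.dvd_of_dvd_pow (hk ▸ hpm)))
  · have h3 : ∀ s : ℕ, s.Prime → s ∣ m → s = r ∨ s = q := fun s hs hsm =>
      h.index_cent hs (x := ⟨v0, hv0⟩) (by rwa [hm1])
    have hrm : r ∣ m := by
      obtain ⟨p, hp, hpm, hpq⟩ := H.exists_prime_ne hpp hq
      exact ((h3 p hp hpm).resolve_right hpq) ▸ hpm
    have hqm : q ∣ m := by
      obtain ⟨p, hp, hpm, hpr⟩ := H.exists_prime_ne hpp hr
      exact ((h3 p hp hpm).resolve_left hpr) ▸ hpm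
    refine ⟨hrm, fun t ht htm d hd ⟨k, hk⟩ g hg => ?_⟩
    have h4 := h t k ⟨d, hd⟩ ht (fun e => htm (e ▸ hrm)) (fun e => htm (e ▸ hqm))
      (by rwa [← Subgroup.orderOf_coe])
    exact mem_cent.2 (congrArg Subtype.val (mem_center_iff.1 h4 ⟨g, hg⟩))

theorem isPrimePow_m : IsPrimePow m := by
  by_contra hpp
  obtain ⟨t, ht, htn⟩ := Nat.exists_prime_and_dvd H.hn.ne'
  refine H.lemB (fun s hs hsc => ?_) ht htn fun x hx hi =>
    H.not_both ht htn (H.pp1 hpp ht hx hi).1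
  by_contra hsm
  obtain ⟨r, hr, x, hxr, hx⟩ := H.exists_PE_n
  obtain ⟨d, hd, hdZ, hds⟩ := H.exists_n hs hx (hsc.mul_left m)
  have h1 := (H.cent_eq_n hx hdZ ((H.pp1 hpp hr hxr hx).2 s hs hsm d hd hds)).1
  exact hsm (H.pp1 hpp hs hds h1).1

end Hy

end Cfsg.Lib.Cs4
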