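import Cfsg.Agent.Cs4.Base
import Cfsg.Agent.S4127
import Cfsg.Agent.S0028

/-!
Groups with conjugacy class sizes `1, p^a, q^b, p^a q^b` are nilpotent.
-/

set_option autoImplicit false
set_option linter.unusedSectionVars false

namespace Cfsg.Lib.Cs4

open Subgroup Cfsg.Lib.Solv Cfsg.Lib.Solv.ClassSize
open scoped commutatorElement

universe u

/-- The class sizes are `1, p^a, q^b, p^a q^b`. -/
structure H2 (G : Type u) [Group G] (n m p q : ℕ) : Prop extends Hy G n m where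
  hp : p.Prime
  hq : q.Prime
  np : ∃ a, n = p ^ a
  mq : ∃ b, m = q ^ b

variable {G : Type u} [Group G] [Finite G]

theorem conj_mem_cent_swap {a b g : G} (h : g * a * g⁻¹ ∈ C b) : g⁻¹ * b * g⁻¹⁻¹ ∈ C a := by
  have := mem_cent.1 h
  rw [mem_cent]
  calc g⁻¹ * b * g⁻¹⁻¹ * a = g⁻¹ * (b * (g * a * g⁻¹)) * g := by group
    _ = a * (g⁻¹ * b * g⁻¹⁻¹) := by rw [← this]; group

theorem not_dvd_index_of_forall {p : ℕ} (hp : p.Prime) {D : Subgroup G}
    (h : ∀ x, PE p x → x ∈ D) : ¬ p ∣ D.index := by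
  rw [← relIndex_top_right]
  exact not_dvd_relIndex_of_forall hp fun x _ hx => h x hx

theorem pCore_le_cent {p : ℕ} (hp : p.Prime) {x : G} (h : ¬ p ∣ (C x).index) :
    pCore p G ≤ C x := by
  have := Fact.mk hp
  obtain ⟨P, hP⟩ := exists_sylow_le_of_not_dvd_index h
  exact (pCore_le_sylow P).trans hP

theorem pCore_le_of_rel {p : ℕ} (hp : p.Prime) {K D : Subgroup G} (hK : pCore p G ≤ K)
    (h : ¬ p ∣ D.relIndex K) : pCore p G ≤ D := by
  have := Fact.mk hp
  obtain ⟨P, hP⟩ := exists_sylow_le_of_not_dvd_index (G := K) (C := D.subgroupOf K) h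
  intro u hu
  exact mem_subgroupOf.1 (hP (pCore_le_sylow P (pCore_subgroupOf_le K
    (mem_subgroupOf.2 (show ((⟨u, hK hu⟩ : K) : G) ∈ pCore p G from hu)))))

theorem PE.of_pCore {p : ℕ} (hp : p.Prime) {x : G} (hx : x ∈ pCore p G) : PE p x :=
  PE.of_mem hp (pCore_isPGroup p G) hx

/-- A `p`-subgroup stabilizing a coset of a normal `p'`-subgroup fixes a point of it. -/
theorem exists_fixed_coset {p : ℕ} (hp : p.Prime) {W S : Subgroup G} [W.Normal]
    (hW : ¬ p ∣ Nat.card W) (hS : IsPGroup p S) {f : G}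
    (h : S ≤ (centralizer ({(f : G ⧸ W)} : Set (G ⧸ W))).comap (QuotientGroup.mk' W)) :
    ∃ w ∈ W, S ≤ C (f * w) := by
  have := Fact.mk hp
  let α := {g : G // (g : G ⧸ W) = (f : G ⧸ W)}
  have hs : ∀ (s : S) (g : α), (((s : G) * g * (s : G)⁻¹ : G) : G ⧸ W) = (f : G ⧸ W) := by
    intro s g
    have h1 := mem_cent_iff_conj.1 (mem_comap.1 (h s.2))
    rw [QuotientGroup.mk_mul, QuotientGroup.mk_mul, QuotientGroup.mk_inv, g.2]
    exact h1
  let _ : MulAction S α :=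
    { smul := fun s g => ⟨(s : G) * g * (s : G)⁻¹, hs s g⟩
      one_smul := fun g => Subtype.ext (by
        change ((1 : S) : G) * g * ((1 : S) : G)⁻¹ = g
        simp)
      mul_smul := fun s t g => Subtype.ext (by
        change ((s * t : S) : G) * g * ((s * t : S) : G)⁻¹ =
          (s : G) * ((t : G) * g * (t : G)⁻¹) * (s : G)⁻¹
        rw [Subgroup.coe_mul]; group) }
  have hc : Nat.card α = Nat.card W := by
    refine (Nat.card_congr (Equiv.ofBijective
      (fun w : W => (⟨f * w, by simp⟩ : α)) ⟨fun a b hab => ?_, fun g => ?_⟩)).symm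
    · exact Subtype.ext (mul_left_cancel (congrArg Subtype.val hab))
    · exact ⟨⟨f⁻¹ * g, QuotientGroup.eq.1 g.2.symm⟩, Subtype.ext (by simp)⟩
  obtain ⟨g, hg⟩ := hS.nonempty_fixed_point_of_prime_not_dvd_card α (by rwa [hc])
  refine ⟨f⁻¹ * g, QuotientGroup.eq.1 g.2.symm, fun s hs => ?_⟩
  rw [mul_inv_cancel_left, mem_cent_iff_conj]
  exact congrArg Subtype.val (hg ⟨s, hs⟩)

namespace H2

variable {n m p q : ℕ} (H : H2 G n m p q)
include H

theorem symm : H2 G m n q p := ⟨H.toHy.symm, H.hq, H.hp, H.mq, H.np⟩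

theorem eq_p {r : ℕ} (hr : r.Prime) (h : r ∣ n) : r = p := by
  obtain ⟨a, ha⟩ := H.np
  exact (Nat.prime_dvd_prime_iff_eq hr H.hp).1 (hr.dvd_of_dvd_pow (ha ▸ h))

theorem p_dvd : p ∣ n := by
  obtain ⟨t, ht, htn⟩ := Nat.exists_prime_and_dvd H.hn.ne'
  exact H.eq_p ht htn ▸ htn

theorem q_dvd : q ∣ m := H.symm.p_dvd

theorem not_p_dvd : ¬ p ∣ m := fun h => H.not_both H.hp H.p_dvd h

theorem not_q_dvd : ¬ q ∣ n := H.symm.not_p_dvd

theorem p_ne_q : p ≠ q := fun h => H.not_p_dvd (h ▸ H.q_dvd)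

theorem index_dvd (x : G) : (C x).index ∣ n * m := by
  rcases H.mem x with h | h | h | h <;> rw [h]
  · exact one_dvd _
  · exact Dvd.intro m rfl
  · exact Dvd.intro_left n rfl

theorem cen {t : ℕ} (ht : t.Prime) (htp : t ≠ p) (htq : t ≠ q) {x : G} (hx : PE t x) :
    x ∈ center G := by
  refine cent_eq_top_iff.1 (eq_top_of_forall_exists_conj_mem fun g => ?_)
  obtain ⟨c, hc⟩ := hx.exists_conj ht (D := C g) fun h => by
    rcases (Nat.Prime.dvd_mul ht).1 (h.trans (H.index_dvd g)) with h | h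
    · exact htp (H.eq_p ht h)
    · exact htq (H.symm.eq_p ht h)
  exact ⟨c⁻¹, conj_mem_cent_swap hc⟩

theorem solv : Group.IsSolvable G :=
  CITCor.Cls.Cen2.isSolvable (p := p) (q := q) fun _ k _ hr h1 h2 hk => H.cen hr h1 h2 ⟨k, hk⟩

theorem mem_U {x : G} (hx : PE p x) (h1 : pCore p G ≤ C x) (h2 : pCore q G ≤ C x) :
    x ∈ pCore p G := by
  have := H.solv
  have := Fact.mk H.hp
  obtain ⟨k, hk⟩ := hx
  refine mem_pCore_of_mem_fitting (centralizer_fitting_le G (le_cent_iff.1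
    (fitting_le_of_forall_pCore_le fun t ht => ?_))) hk
  by_cases htp : t = p
  · exact htp ▸ h1
  by_cases htq : t = q
  · exact htq ▸ h2
  exact fun y hy => center_le_cent x (H.cen ht.out htp htq (PE.of_pCore ht.out hy))

theorem U_le_cent {w : G} (hw : w ∈ pCore q G) : pCore p G ≤ C w := by
  have := Fact.mk H.hp
  have := Fact.mk H.hq
  exact le_cent_iff.2 (pCore_le_centralizer_pCore_of_ne H.p_ne_q.symm hw)

theorem npc {x : G} (hx : PE p x) (hi : (C x).index = n) : HasNormalPComplement p G := by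
  have := Fact.mk H.hp
  obtain ⟨a, ha⟩ := H.np
  refine Cfsg.Agent.S4127.result p a (fun y hy => H.not_p_dvd ?_) ⟨x, hx, hi.trans ha⟩
  have h1 := hy.trans (H.index_dvd y)
  rw [ha, pow_succ] at h1
  exact Nat.dvd_of_mul_dvd_mul_left (pow_pos H.hp.pos a) h1

theorem allp {y : G} (hy : PE q y) (hi : (C y).index = m) {x : G} (hx : PE p x) :
    x ∈ pCore p G := by
  have := Fact.mk H.hp
  have := Fact.mk H.hq
  obtain ⟨Q, N, hN, hc⟩ := H.symm.npc hy hi
  have hNi : ∃ k, N.index = q ^ k := by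
    rw [hc.symm.index_eq_card]
    exact Q.isPGroup'.exists_card_eq
  have hNc : ¬ q ∣ Nat.card N := by
    rw [← hc.index_eq_card]
    exact Q.not_dvd_index
  have hmem : ∀ z : G, PE p z → z ∈ N := fun z hz => by
    obtain ⟨k, hk⟩ := hNi
    refine mem_of_normal_of_coprime ?_
    rw [hk]
    exact (hz.coprime_prime H.hp H.hq H.p_ne_q).pow_right k
  rw [pCore_eq_iInf_sylow, mem_iInf]
  intro P
  have h1 : N ≤ normalizer ((P : Subgroup G) : Set G) := by
    rw [← relIndex_eq_one]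
    refine Nat.eq_one_iff_not_exists_prime_dvd.2 fun r hr => ?_
    by_cases hrp : r = p
    · subst hrp
      intro hd
      refine P.not_dvd_index ((hd.trans (relIndex_dvd_of_le_left N le_normalizer)).trans ?_)
      exact relIndex_dvd_index_of_le fun z hz => hmem z (PE.of_mem hr P.isPGroup' hz)
    refine not_dvd_relIndex_of_forall hr fun z hz hzr => ?_
    by_cases hrq : r = q
    · subst hrq
      obtain ⟨k, hk⟩ := hzr
      rcases k with _ | k
      · rw [orderOf_eq_one_iff.1 (hk.trans (pow_zero _))]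
        exact one_mem _
      · exact absurd ((hk ▸ dvd_pow_self r k.succ_ne_zero).trans (orderOf_dvd_natCard N hz)) hNc
    · exact center_le_normalizer _ (H.cen hr hrp hrq hzr)
  have h2 : x ∈ zpowers x ⊓ normalizer ((P : Subgroup G) : Set G) :=
    ⟨mem_zpowers x, h1 (hmem x hx)⟩
  exact ((hx.isPGroup.inf_normalizer_sylow P).le h2).2

theorem nil_of {x y : G} (hx : PE p x) (hxi : (C x).index = n) (hy : PE q y)
    (hyi : (C y).index = m) : Group.IsNilpotent G := by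
  have := Fact.mk H.hp
  have := Fact.mk H.hq
  have h1 : (⊤ : Subgroup G) ≤ fittingSubgroup G := by
    refine le_of_forall_PE fun r hr z _ hz => ?_
    by_cases hrp : r = p
    · subst hrp
      exact pCore_le_fitting r G (H.allp hy hyi hz)
    by_cases hrq : r = q
    · subst hrq
      exact pCore_le_fitting r G (H.symm.allp hx hxi hz)
    exact center_le_fitting G (H.cen hr hrp hrq hz)
  exact fitting_eq_top_iff.1 (top_le_iff.1 h1)

theorem claim1 {d v : G} (hd : d ∈ pCore p G) (hi : (C d).index = n * m) (hv : v ∈ C d)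
    (hvq : PE q v) : pCore p G ≤ C v := by
  have := Fact.mk H.hp
  have hdp := PE.of_pCore H.hp hd
  have h1 := H.f1 hi hv (PE.coprime H.hp H.hq H.p_ne_q hdp hvq)
  have h2 := Cfsg.Agent.S0028.result p (zpowers d) (zpowers v) (pCore p G) hdp.isPGroup
    (by rw [Nat.card_zpowers]; exact hvq.coprime_prime H.hq H.hp H.p_ne_q.symm)
    (pCore_isPGroup p G) (by rw [centralizer_zpowers]; exact zpowers_le.2 (mem_cent_comm.1 hv))
    le_normalizer_of_normal le_normalizer_of_normal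
    (by rw [centralizer_zpowers, centralizer_zpowers]; exact inf_le_right.trans h1)
  exact le_cent_iff.2 (h2 (mem_zpowers v))

section H1

variable (h1 : ∀ x : G, PE p x → (C x).index ≠ n)
include h1

theorem exists_x : ∃ x : G, PE q x ∧ (C x).index = n := by
  obtain ⟨r, hr, x, hxr, hx⟩ := H.exists_PE_n
  by_cases hrp : r = p
  · exact absurd hx (h1 x (hrp ▸ hxr))
  by_cases hrq : r = q
  · exact ⟨x, hrq ▸ hxr, hx⟩
  exact absurd (H.cen hr hrp hrq hxr) (H.not_cen_n hx)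

theorem p_dvd_cc : p ∣ cc G n m := by
  by_contra hpc
  refine H.lemB (fun s hs hsc => ?_) H.hp H.p_dvd h1
  obtain ⟨w, hw⟩ := H.exnm
  obtain ⟨u, -, huZ, hus⟩ := H.exists_nm hs hw hsc
  by_cases hsq : s = q
  · exact hsq ▸ H.q_dvd
  exact absurd (H.cen hs (fun e => hpc (e ▸ hsc)) hsq hus) huZ

theorem idx_p {d : G} (hd : PE p d) (hZ : d ∉ center G) :
    (C d).index = m ∨ (C d).index = n * m := by
  rcases H.mem d with h | h | h | h
  · exact absurd (index_cent_eq_one_iff.1 h) hZ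
  · exact absurd h (h1 d hd)
  · exact Or.inl h
  · exact Or.inr h

theorem exists_d0 {x : G} (hx : (C x).index = n) : ∃ d ∈ C x, d ∉ center G ∧ PE p d :=
  H.exists_n H.hp hx ((H.p_dvd_cc h1).mul_left m)

theorem caseA {y : G} (hy : PE q y) (hyi : (C y).index = m) : False := by
  obtain ⟨x, hxq, hx⟩ := H.exists_x h1
  obtain ⟨d0, hd0, hd0Z, hd0p⟩ := H.exists_d0 h1 hx
  have hUy : pCore p G ≤ C y := pCore_le_cent H.hp (hyi ▸ H.not_p_dvd)
  have hle : ∀ d ∈ pCore p G, d ∉ center G → C d ≤ C y := by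
    intro d hd hdZ
    have hdp := PE.of_pCore H.hp hd
    have hyd : y ∈ C d := mem_cent_comm.1 (hUy hd)
    have hco := PE.coprime H.hp H.hq H.p_ne_q hdp hy
    rcases H.idx_p h1 hdp hdZ with h | h
    · rcases H.toHy.symm.mul_n h hyd hco with h' | ⟨h', -⟩
      · exact h'
      · refine absurd (h' ▸ H.p_dvd.mul_left m) (not_dvd_index_of_forall H.hp fun z hz => ?_)
        have hzU := H.allp hy hyi hz
        exact inf_cent_le_cent_mul d y ⟨pCore_le_cent H.hp (h ▸ H.not_p_dvd) hzU, hUy hzU⟩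
    · exact H.f1 h hyd hco
  have hxy : x ∈ C y := hle d0 (H.allp hy hyi hd0p) hd0Z (mem_cent_comm.1 hd0)
  have hUx : pCore p G ≤ C x := by
    by_cases hex : ∃ d ∈ pCore p G, (C d).index = n * m
    · obtain ⟨d, hd, hdi⟩ := hex
      have h2 := relIndex_mul_index (hle d hd (H.not_cen_nm hdi))
      rw [hyi, hdi] at h2
      have h3 := Nat.eq_of_mul_eq_mul_right (by have := H.hm; omega) h2
      obtain ⟨g, -, hg⟩ := hxq.exists_conj_rel H.hq hxy (D := C d) (h3 ▸ H.not_q_dvd)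
      have h4 := H.claim1 hd hdi hg (hxq.conj g)
      intro u hu
      have h5 := h4 ((inferInstance : (pCore p G).Normal).conj_mem u hu g)
      rw [mem_cent] at h5 ⊢
      calc u * x = g⁻¹ * (g * u * g⁻¹ * (g * x * g⁻¹)) * g := by group
        _ = x * u := by rw [h5]; group
    · push Not at hex
      intro u hu
      by_cases huZ : u ∈ center G
      · exact center_le_cent x huZ
      have h2 := (H.idx_p h1 (PE.of_pCore H.hp hu) huZ).resolve_right (hex u hu)
      exact mem_cent_comm.1 ((eq_of_le (hle u hu huZ) (h2.trans hyi.symm)).ge hxy)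
  exact not_dvd_index_of_forall H.hp (fun z hz => hUx (H.allp hy hyi hz)) (hx ▸ H.p_dvd)

theorem q_dvd_cc : q ∣ cc G n m := by
  obtain ⟨x, hxq, hx⟩ := H.exists_x h1
  obtain ⟨d0, hd0, hd0Z, hd0p⟩ := H.exists_d0 h1 hx
  rcases H.mul_n hx hd0 (PE.coprime H.hq H.hp H.p_ne_q.symm hxq hd0p) with h | ⟨h, -⟩
  · exact absurd (H.cent_eq_n hx hd0Z h).1 (h1 d0 hd0p)
  · exact H.dvd_cc H.hq h (Hy.mem_cent_mul hd0).1 hxq (H.not_cen_n hx)

theorem caseB1 (hW : pCore q G ≤ center G) : False := by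
  obtain ⟨x, hxq, hx⟩ := H.exists_x h1
  obtain ⟨d0, hd0, hd0Z, hd0p⟩ := H.exists_d0 h1 hx
  have hWc : ∀ v : G, pCore q G ≤ C v := fun v => hW.trans (center_le_cent v)
  have noq : ∀ v : G, PE q v → pCore p G ≤ C v → v ∈ center G := fun v hv h =>
    hW (H.symm.mem_U hv (hWc v) h)
  have idxU : ∀ d ∈ pCore p G, d ∉ center G → (C d).index = m := by
    intro d hd hdZ
    refine (H.idx_p h1 (PE.of_pCore H.hp hd) hdZ).resolve_right fun h => ?_
    obtain ⟨v, hv, hvZ, hvq⟩ := H.exists_nm H.hq h (H.q_dvd_cc h1)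
    exact hvZ (noq v hvq (H.claim1 hd h hv hvq))
  have hab : IsMulCommutative (pCore p G) := ⟨⟨fun a b => Subtype.ext (by
    by_cases hb : (b : G) ∈ center G
    · exact mem_center_iff.1 hb a
    · exact mem_cent.1 (pCore_le_cent H.hp (idxU b b.2 hb ▸ H.not_p_dvd) a.2))⟩⟩
  obtain ⟨u, hu, hux⟩ : ∃ u ∈ pCore p G, u ∉ C x := by
    by_contra hno
    push Not at hno
    exact H.not_cen_n hx (noq x hxq hno)
  obtain ⟨y, hy, hyZ, hyx⟩ : ∃ y ∈ pCore p G, y ∉ center G ∧ y ∈ C x := by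
    rcases H.idx_p h1 hd0p hd0Z with h | h
    · exact ⟨d0, H.mem_U hd0p (pCore_le_cent H.hp (h ▸ H.not_p_dvd)) (hWc d0), hd0Z, hd0⟩
    · have huZ : u ∉ center G := fun hz => hux (center_le_cent x hz)
      obtain ⟨g, hg⟩ := hd0p.exists_conj H.hp (D := C u) (idxU u hu huZ ▸ H.not_p_dvd)
      exact ⟨_, (inferInstance : (pCore p G).Normal).conj_mem u hu g⁻¹,
        mt conj_mem_center_iff.1 huZ, H.f1 h (mem_cent_comm.1 hd0)
          (PE.coprime H.hp H.hq H.p_ne_q hd0p hxq) (conj_mem_cent_swap hg)⟩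
  have hV : ⁅pCore p G, zpowers x⁆ ⊓ C x = ⊥ := by
    have h2 := commutator_inf_centralizer_eq_bot_of_le (M := pCore p G) (A := pCore p G)
      (W := zpowers x) (commutator_le_left _ _) (by
        have := Fact.mk H.hp
        obtain ⟨k, hk⟩ := (pCore_isPGroup p G).exists_card_eq
        rw [Nat.card_zpowers, hk]
        exact (hxq.coprime_prime H.hq H.hp H.p_ne_q.symm).pow_right k)
    rwa [centralizer_zpowers] at h2
  have hdV : ∀ v ∈ pCore p G, ⁅v, x⁆ ∈ ⁅pCore p G, zpowers x⁆ := fun v hv =>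
    commutator_mem_commutator hv (mem_zpowers x)
  have hdx : ⁅u, x⁆ ∉ C x := fun h => by
    have h2 : ⁅u, x⁆ ∈ ⁅pCore p G, zpowers x⁆ ⊓ C x := ⟨hdV u hu, h⟩
    rw [hV, mem_bot, commutatorElement_eq_one_iff_mul_comm] at h2
    exact hux (mem_cent.2 h2)
  have hyd : y * ⁅u, x⁆ ∉ C x := fun h => hdx ((mul_mem_cancel_left hyx).1 h)
  have hi : (C (y * ⁅u, x⁆)).index = m :=
    idxU _ (mul_mem hy (commutator_le_left _ _ (hdV u hu))) fun hz => hyd (center_le_cent x hz)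
  have hle : C x ⊓ C (y * ⁅u, x⁆) ≤ C x ⊓ C y := by
    intro h hh
    obtain ⟨hh1, hh2⟩ := mem_inf.1 hh
    refine mem_inf.2 ⟨hh1, ?_⟩
    have e1 : h * x * h⁻¹ = x := mem_cent_iff_conj.1 hh1
    have e2 : h * (y * ⁅u, x⁆) * h⁻¹ = y * ⁅u, x⁆ := mem_cent_iff_conj.1 hh2
    have e3 : h * ⁅u, x⁆ * h⁻¹ = ⁅h * u * h⁻¹, x⁆ := by
      conv_rhs => rw [← e1]
      simp only [commutatorElement_def]; group
    have e4 : y⁻¹ * (h * y * h⁻¹) = ⁅u, x⁆ * ⁅h * u * h⁻¹, x⁆⁻¹ := by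
      rw [← e3]
      calc y⁻¹ * (h * y * h⁻¹) = y⁻¹ * (h * (y * ⁅u, x⁆) * h⁻¹) * (h * ⁅u, x⁆ * h⁻¹)⁻¹ := by group
        _ = ⁅u, x⁆ * (h * ⁅u, x⁆ * h⁻¹)⁻¹ := by rw [e2]; group
    have h3 : y⁻¹ * (h * y * h⁻¹) ∈ ⁅pCore p G, zpowers x⁆ ⊓ C x :=
      mem_inf.2 ⟨e4 ▸ mul_mem (hdV u hu) (inv_mem (hdV _
        ((inferInstance : (pCore p G).Normal).conj_mem u hu h))),
        mul_mem (inv_mem hyx) (mul_mem (mul_mem hh1 hyx) (inv_mem hh1))⟩
    rw [hV, mem_bot, inv_mul_eq_one] at h3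
    exact mem_cent_iff_conj.2 h3.symm
  have heq := eq_of_le hle (by
    rw [index_inf_of_coprime (by rw [hx, hi]; exact H.cop),
      index_inf_of_coprime (by rw [hx, idxU y hy hyZ]; exact H.cop), hi, idxU y hy hyZ])
  have h4 : x ∈ C x ⊓ C y := ⟨self_mem_cent x, mem_cent_comm.1 hyx⟩
  rw [← heq] at h4
  exact hyd (mem_cent_comm.1 h4.2)

theorem exists_x1 (h2 : ∀ y : G, PE q y → (C y).index ≠ m) (hW : ¬ pCore q G ≤ center G) :
    ∃ x ∈ pCore q G, (C x).index = n := by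
  obtain ⟨x0, hx0, hx0Z⟩ := SetLike.not_le_iff_exists.1 hW
  have hx0q := PE.of_pCore H.hq hx0
  rcases H.symm.idx_p h2 hx0q hx0Z with h | h
  · exact ⟨x0, hx0, h⟩
  obtain ⟨x, hxq, hx⟩ := H.exists_x h1
  have hWx : pCore q G ≤ C x := pCore_le_cent H.hq (hx ▸ H.not_q_dvd)
  refine ⟨x, H.symm.mem_U hxq hWx fun v hv => mem_cent_comm.1 ?_, hx⟩
  exact H.toHy.symm.f1 h (H.U_le_cent hx0 hv)
    (PE.coprime H.hq H.hp H.p_ne_q.symm hx0q (PE.of_pCore H.hp hv)) (mem_cent_comm.1 (hWx hx0))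

theorem caseB2 (h2 : ∀ y : G, PE q y → (C y).index ≠ m) (hU : ¬ pCore p G ≤ center G)
    (hW : ¬ pCore q G ≤ center G) : False := by
  have := Fact.mk H.hp
  have := Fact.mk H.hq
  obtain ⟨x1, hx1, hx1i⟩ := H.exists_x1 h1 h2 hW
  obtain ⟨y1, hy1, hy1i⟩ := H.symm.exists_x1 h2 h1 hU
  have hx2 : ∀ f : G, PE q f → ∃ x2 ∈ pCore q G, (C x2).index = n ∧ x2 ∈ C f := by
    intro f hf
    obtain ⟨g, hg⟩ := hf.exists_conj H.hq (D := C x1) (hx1i ▸ H.not_q_dvd)
    exact ⟨_, (inferInstance : (pCore q G).Normal).conj_mem x1 hx1 g⁻¹,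
      (index_cent_conj x1 g⁻¹).trans hx1i, conj_mem_cent_swap hg⟩
  have key : ∀ f : G, PE q f → f ∉ C y1 → (C f).index = n := by
    intro f hf hfy
    refine (H.symm.idx_p h2 hf fun hz => hfy (center_le_cent y1 hz)).resolve_right fun h => ?_
    obtain ⟨x2, hx2W, hx2i, hx2f⟩ := hx2 f hf
    have e1 : ¬ p ∣ (C x2).relIndex (C f) := not_dvd_relIndex_of_forall H.hp fun v hv hvp =>
      mem_cent_comm.1 (H.toHy.symm.f1 h hv (PE.coprime H.hq H.hp H.p_ne_q.symm hf hvp) hx2f)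
    have e2 := relIndex_mul_index (inf_le_left : C f ⊓ C x2 ≤ C f)
    have e3 := relIndex_mul_index (inf_le_right : C f ⊓ C x2 ≤ C x2)
    rw [inf_relIndex_left, h] at e2
    rw [inf_relIndex_right, hx2i, ← e2, ← mul_assoc] at e3
    have e4 := Nat.eq_of_mul_eq_mul_right (by have := H.hn; omega) e3
    have e5 : ¬ p ∣ (C f).relIndex (C x2) := by
      rw [e4]
      exact fun hd => ((Nat.Prime.dvd_mul H.hp).1 hd).elim e1 H.not_p_dvd
    exact hfy (mem_cent_comm.1 (pCore_le_of_rel H.hp (H.U_le_cent hx2W) e5 hy1))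
  obtain ⟨f, hf, hfy⟩ : ∃ f : G, PE q f ∧ f ∉ C y1 := by
    by_contra hno
    push Not at hno
    exact not_dvd_index_of_forall H.hq hno (hy1i ▸ H.q_dvd)
  have hWy : pCore q G ≤ C y1 := H.symm.U_le_cent hy1
  set Y := (centralizer ({(f : G ⧸ pCore q G)} : Set (G ⧸ pCore q G))).comap
    (QuotientGroup.mk' (pCore q G)) with hY
  have hcos : ∀ w ∈ pCore q G, (C (f * w)).index = n ∧ C (f * w) ≤ Y := by
    intro w hw
    have e : ((f * w : G) : G ⧸ pCore q G) = f := QuotientGroup.mk_mul_of_mem f hw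
    refine ⟨key _ ?_ fun h => hfy ((mul_mem_cancel_right (hWy hw)).1 h), ?_⟩
    · obtain ⟨k, hk⟩ := hf.pow_eq_one
      have h3 : (f * w) ^ q ^ k ∈ pCore q G := by
        rw [← QuotientGroup.eq_one_iff, QuotientGroup.mk_pow, e, ← QuotientGroup.mk_pow, hk,
          QuotientGroup.mk_one]
      obtain ⟨j, hj⟩ := (PE.of_pCore H.hq h3).pow_eq_one
      exact PE.of_pow_eq_one H.hq (k := k + j) (by rw [pow_add, pow_mul, hj])
    · have h3 := cent_le_comap (QuotientGroup.mk' (pCore q G)) (f * w)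
      rwa [QuotientGroup.mk'_apply, e] at h3
  have hYi : Y.index = n := by
    obtain ⟨S⟩ : Nonempty (Sylow p Y) := inferInstance
    obtain ⟨w, hw, hS⟩ := exists_fixed_coset H.hp (W := pCore q G)
      (S := (S : Subgroup Y).map Y.subtype) (f := f) (by
        obtain ⟨k, hk⟩ := (pCore_isPGroup q G).exists_card_eq
        rw [hk]
        exact fun hd => H.p_ne_q ((Nat.prime_dvd_prime_iff_eq H.hp H.hq).1
          (H.hp.dvd_of_dvd_pow hd))) (S.isPGroup'.map _) (map_subtype_le _)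
    obtain ⟨hi, hle⟩ := hcos w hw
    have e1 : ¬ p ∣ (C (f * w)).relIndex Y :=
      not_dvd_index_of_sylow_le S (map_le_iff_le_comap.1 hS)
    have e2 := relIndex_mul_index hle
    rw [hi] at e2
    have e3 : (C (f * w)).relIndex Y = 1 := Nat.eq_one_iff_not_exists_prime_dvd.2 fun r hr hd =>
      e1 (H.eq_p hr (hd.trans (Dvd.intro _ e2)) ▸ hd)
    rwa [e3, one_mul] at e2
  obtain ⟨x2, hx2W, hx2i, hx2f⟩ := hx2 f hf
  have e1 : C f = Y := by
    have h3 := hcos 1 (one_mem _)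
    rw [mul_one] at h3
    exact eq_of_le h3.2 (h3.1.trans hYi.symm)
  have e2 : C (f * x2) = Y := eq_of_le (hcos x2 hx2W).2 ((hcos x2 hx2W).1.trans hYi.symm)
  have e3 : C f ≤ C x2 := fun g hg => by
    have h3 : g ∈ C (f * x2) := by rw [e2, ← e1]; exact hg
    rw [mem_cent_comm] at hg h3 ⊢
    exact (mul_mem_cancel_left hg).1 h3
  have e4 := eq_of_le e3 ((key f hf hfy).trans hx2i.symm)
  exact hfy (mem_cent_comm.1 (e4.ge (H.U_le_cent hx2W hy1)))

end H1

theorem nil : Group.IsNilpotent G := by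
  by_cases hx : ∃ x : G, PE p x ∧ (C x).index = n
  · obtain ⟨x, hx, hxi⟩ := hx
    by_cases hy : ∃ y : G, PE q y ∧ (C y).index = m
    · obtain ⟨y, hy, hyi⟩ := hy
      exact H.nil_of hx hxi hy hyi
    · push Not at hy
      exact (H.symm.caseA hy hx hxi).elim
  push Not at hx
  exfalso
  by_cases hy : ∃ y : G, PE q y ∧ (C y).index = m
  · obtain ⟨y, hy, hyi⟩ := hy
    exact H.caseA hx hy hyi
  push Not at hy
  by_cases hW : pCore q G ≤ center G
  · exact H.caseB1 hx hW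
  by_cases hU : pCore p G ≤ center G
  · exact H.symm.caseB1 hy hU
  exact H.caseB2 hx hy hU hW

end H2

end Cfsg.Lib.Cs4
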